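import Cfsg.Agent.Lib.H04.NC
import Cfsg.Agent.Lib.Lead.Burnside

/-!
# Tools for the elimination of small orders of simple groups
-/

set_option autoImplicit false
set_option linter.style.haveILetI false
set_option linter.unusedSectionVars false
set_option linter.unusedVariables false

namespace Cfsg.Agent.H04.Small

open MulAction Subgroup Cfsg.Agent.H04

variable {G : Type*} [Group G] [Finite G]

theorem card_normalizer_mul {p : ℕ} [Fact p.Prime] (P : Sylow p G) :
    Nat.card (normalizer ((P : Subgroup G) : Set G)) * Nat.card (Sylow p G) = Nat.card G := by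
  rw [P.card_eq_index_normalizer]
  exact (normalizer ((P : Subgroup G) : Set G)).card_mul_index

theorem relIndex_dvd_card_normalizer (H : Subgroup G) :
    (centralizer (H : Set G)).relIndex (normalizer (H : Set G)) ∣ Nat.card (normalizer (H : Set G)) := by
  rw [Subgroup.relIndex]
  exact Subgroup.index_dvd_card _

/-- In a simple group with Sylow subgroups of prime order, the index of the centralizer in the
normalizer is a nontrivial common divisor of `p - 1` and the order of the normalizer. -/
theorem nc_facts [IsSimpleGroup G] (hG : ¬ IsMulCommutative G) {p : ℕ} [Fact p.Prime] (P : Sylow p G)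
    (hP : Nat.card P = p) :
    (centralizer ((P : Subgroup G) : Set G)).relIndex (normalizer ((P : Subgroup G) : Set G)) ≠ 1 ∧
    (centralizer ((P : Subgroup G) : Set G)).relIndex (normalizer ((P : Subgroup G) : Set G)) ∣ p - 1 ∧
    (centralizer ((P : Subgroup G) : Set G)).relIndex (normalizer ((P : Subgroup G) : Set G)) ∣
      Nat.card (normalizer ((P : Subgroup G) : Set G)) := by
  have hp : p.Prime := Fact.out
  have hne : (P : Subgroup G) ≠ ⊥ := by
    intro h
    have h1 : Nat.card ((P : Subgroup G)) = 1 := by rw [h]; simp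
    have h2 : Nat.card (P : Subgroup G) = p := hP
    rw [h2] at h1
    exact hp.one_lt.ne' h1
  exact ⟨relIndex_ne_one hG P hne, relIndex_dvd_pred_of_card_prime hp hP, relIndex_dvd_card_normalizer _⟩

theorem not_comm_of_card [IsSimpleGroup G] (h : ¬ (Nat.card G).Prime) : ¬ IsMulCommutative G :=
  not_isMulCommutative_of_not_prime h

/-- index bound. -/
theorem factorial_index [IsSimpleGroup G] (hG : ¬ IsMulCommutative G) (H : Subgroup G) (hH : H ≠ ⊤) :
    2 * Nat.card G ∣ H.index.factorial := two_mul_card_dvd_factorial hG H hH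

/-- A lower bound for the index of proper subgroups in a simple group. -/
theorem index_lower [IsSimpleGroup G] (hG : ¬ IsMulCommutative G) (n : ℕ)
    (hn : ¬ 2 * Nat.card G ∣ n.factorial) (H : Subgroup G) (hH : H ≠ ⊤) : n < H.index := by
  by_contra hle
  push Not at hle
  apply hn
  have h1 := two_mul_card_dvd_factorial hG H hH
  exact h1.trans (Nat.factorial_dvd_factorial hle)

/-- The normalizer of a nontrivial proper subgroup of a simple group is proper. -/
theorem normalizer_ne_top [IsSimpleGroup G] {D : Subgroup G} (h1 : D ≠ ⊥) (h2 : D ≠ ⊤) :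
    normalizer (D : Set G) ≠ ⊤ := by
  intro h
  have hN : D.Normal := Subgroup.normalizer_eq_top_iff.1 h
  rcases IsSimpleGroup.eq_bot_or_eq_top_of_normal D hN with h3 | h3
  · exact h1 h3
  · exact h2 h3

theorem card_eq_relIndex_mul {H K : Subgroup G} (h : H ≤ K) : Nat.card K = H.relIndex K * Nat.card H := by
  rw [Subgroup.relIndex, ← Nat.card_congr (Subgroup.subgroupOfEquivOfLe h).toEquiv, mul_comm]
  exact (Subgroup.card_mul_index _).symm

theorem centralizer_le_normalizer_of (H : Subgroup G) :
    centralizer (H : Set G) ≤ normalizer (H : Set G) := by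
  intro c hc
  refine Subgroup.mem_normalizer_iff.2 fun h => ?_
  constructor
  · intro hh
    have : c * h = h * c := (Subgroup.mem_centralizer_iff.1 hc h hh).symm
    rw [this]
    simpa using hh
  · intro hh
    have h1 := (Subgroup.mem_centralizer_iff.1 hc _ hh).symm
    have h2 : c * h * c⁻¹ * c = c * h := by group
    rw [h2] at h1
    have h3 := mul_left_cancel h1
    rw [← h3]
    exact hh

theorem card_carrier_mul_centralizer' (g : G) :
    Nat.card (ConjClasses.mk g).carrier * Nat.card (Subgroup.centralizer ({g} : Set G)) = Nat.card G := by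
  have h1 := (MulAction.stabilizer (ConjAct G) g).card_mul_index
  rw [MulAction.index_stabilizer, ConjAct.orbit_eq_carrier_conjClasses, ← Nat.card_coe_set_eq,
    ← Subgroup.nat_card_centralizer_nat_card_stabilizer] at h1
  rw [mul_comm, h1]
  rfl

theorem orderOf_conj' (g x : G) : orderOf (g * x * g⁻¹) = orderOf x :=
  orderOf_injective (MulAut.conj g).toMonoidHom (MulEquiv.injective _) x

/-- Sign of an involution. -/
theorem sign_of_sq_eq_one {X : Type*} [Fintype X] [DecidableEq X] (σ : Equiv.Perm X) (h : σ ^ 2 = 1)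
    (k : ℕ) (hk : σ.support.card = 2 * k) : Equiv.Perm.sign σ = (-1) ^ k := by
  have hall : ∀ n ∈ σ.cycleType, n = 2 := by
    intro n hn
    have h1 : n ∣ orderOf σ := Equiv.Perm.dvd_of_mem_cycleType hn
    have h2 : orderOf σ ∣ 2 := orderOf_dvd_of_pow_eq_one h
    have h3 : 2 ≤ n := Equiv.Perm.two_le_of_mem_cycleType hn
    have h4 : n ≤ 2 := Nat.le_of_dvd (by norm_num) (h1.trans h2)
    omega
  have hrep : σ.cycleType = Multiset.replicate (Multiset.card σ.cycleType) 2 :=
    Multiset.eq_replicate_card.2 hall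
  have hsum : σ.cycleType.sum = 2 * Multiset.card σ.cycleType := by
    conv_lhs => rw [hrep]
    simp [mul_comm]
  have hsum2 : σ.cycleType.sum = σ.support.card := Equiv.Perm.sum_cycleType σ
  have hc : Multiset.card σ.cycleType = k := by omega
  rw [Equiv.Perm.sign_of_cycleType, hsum, hc, pow_add, pow_mul]
  simp

/-- Distinct Sylow subgroups of prime order intersect trivially. -/
theorem subgroupOf_eq_bot {p : ℕ} [Fact p.Prime] (P Q : Sylow p G) (hP : Nat.card P = p) (hne : P ≠ Q) :
    (Q : Subgroup G).subgroupOf (P : Subgroup G) = ⊥ := by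
  have hp : p.Prime := Fact.out
  haveI : Fact (Nat.card (P : Subgroup G)).Prime := ⟨by
    have h : Nat.card (P : Subgroup G) = p := hP
    rw [h]; exact hp⟩
  rcases Subgroup.eq_bot_or_eq_top_of_prime_card ((Q : Subgroup G).subgroupOf (P : Subgroup G)) with h | h
  · exact h
  · exfalso
    apply hne
    have h1 : (P : Subgroup G) ≤ Q := by
      intro x hx
      have : (⟨x, hx⟩ : (P : Subgroup G)) ∈ (Q : Subgroup G).subgroupOf (P : Subgroup G) := by rw [h]; trivial
      exact this
    exact Sylow.ext (P.is_maximal' Q.isPGroup' h1).symm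

/-- With `p + 1` Sylow subgroups of order `p`, a Sylow subgroup permutes the others transitively. -/
theorem exists_smul_eq_of_card {p : ℕ} [Fact p.Prime] (P : Sylow p G) (hP : Nat.card P = p)
    (hn : Nat.card (Sylow p G) = p + 1) (Q R : Sylow p G) (hQ : Q ≠ P) (hR : R ≠ P) :
    ∃ r ∈ (P : Subgroup G), r • Q = R := by
  classical
  have hp : p.Prime := Fact.out
  have h1 : Nat.card (orbit (P : Subgroup G) Q) = p := by
    rw [card_orbit_sylow, subgroupOf_eq_bot P Q hP hQ.symm, Subgroup.index_bot]
    exact hP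
  have hsub : orbit (P : Subgroup G) Q ⊆ ({P}ᶜ : Set (Sylow p G)) := by
    rintro _ ⟨r, rfl⟩ h
    apply hQ
    have h2 : (r : G) • Q = P := h
    have h3 : ((r : G)⁻¹) • P = P :=
      Sylow.smul_eq_iff_mem_normalizer.2 (Subgroup.le_normalizer (inv_mem r.2))
    calc Q = ((r : G)⁻¹) • ((r : G) • Q) := (inv_smul_smul _ _).symm
      _ = ((r : G)⁻¹) • P := by rw [h2]
      _ = P := h3
  have hX : ({P}ᶜ : Set (Sylow p G)).ncard = p := by
    rw [Set.ncard_compl, hn, Set.ncard_singleton]
    omega
  have hO : (orbit (P : Subgroup G) Q).ncard = p := by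
    rw [← Nat.card_coe_set_eq]; exact h1
  have heq : orbit (P : Subgroup G) Q = ({P}ᶜ : Set (Sylow p G)) :=
    Set.eq_of_subset_of_ncard_le hsub (by rw [hX, hO])
  have hRm : R ∈ orbit (P : Subgroup G) Q := by rw [heq]; exact hR
  obtain ⟨r, hr⟩ := hRm
  exact ⟨r, r.2, hr⟩

/-- Two distinct Sylow subgroups in a subgroup: lower bound for its order. -/
theorem card_sylow_subgroup_ge {p : ℕ} [Fact p.Prime] (M : Subgroup G) (P R : Sylow p G)
    (hP : (P : Subgroup G) ≤ M) (hR : (R : Subgroup G) ≤ M) (hne : P ≠ R) :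
    p + 1 ≤ Nat.card (Sylow p M) ∧ Nat.card (Sylow p M) * Nat.card P ∣ Nat.card M := by
  have hp : p.Prime := Fact.out
  let P' : Sylow p M := P.subtype hP
  let R' : Sylow p M := R.subtype hR
  have hne' : P' ≠ R' := by
    intro h
    apply hne
    have h1 : (P' : Subgroup M) = R' := congrArg _ h
    rw [Sylow.coe_subtype, Sylow.coe_subtype] at h1
    have h2 := Subgroup.subgroupOf_inj.1 h1
    rw [inf_eq_left.2 hP, inf_eq_left.2 hR] at h2
    exact Sylow.ext h2
  have hcard : Nat.card P' = Nat.card P := by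
    show Nat.card (P' : Subgroup M) = Nat.card (P : Subgroup G)
    rw [Sylow.coe_subtype]
    exact Nat.card_congr (Subgroup.subgroupOfEquivOfLe hP).toEquiv
  have h1 : Nat.card (Sylow p M) ≠ 1 := by
    intro h
    haveI : Subsingleton (Sylow p M) := (Nat.card_eq_one_iff_unique.1 h).1
    exact hne' (Subsingleton.elim _ _)
  have h2 : Nat.card (Sylow p M) ≡ 1 [MOD p] := card_sylow_modEq_one p M
  have h3 : 0 < Nat.card (Sylow p M) := Nat.card_pos
  constructor
  · by_contra hlt
    push Not at hlt
    have h4 : Nat.card (Sylow p M) % p = 1 % p := h2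
    rcases Nat.lt_or_ge (Nat.card (Sylow p M)) p with h5 | h5
    · rw [Nat.mod_eq_of_lt h5, Nat.mod_eq_of_lt hp.one_lt] at h4
      exact h1 h4
    · have h6 : Nat.card (Sylow p M) = p := by omega
      rw [h6, Nat.mod_self, Nat.mod_eq_of_lt hp.one_lt] at h4
      omega
  · obtain ⟨m, hm⟩ : Nat.card P' ∣ Nat.card M := Subgroup.card_subgroup_dvd_card _
    have h4 : Nat.card (Sylow p M) ∣ m := card_sylow_dvd_of_card_eq P' m hm.symm
    rw [← hcard, hm, mul_comm (Nat.card P')]
    exact Nat.mul_dvd_mul_right h4 _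

/-- An abelian Sylow subgroup normalizes its subgroups. -/
theorem le_normalizer_of_comm {P D : Subgroup G} (hcomm : ∀ a ∈ P, ∀ b ∈ P, a * b = b * a) (hD : D ≤ P) :
    P ≤ normalizer (D : Set G) := by
  intro y hy
  refine Subgroup.mem_normalizer_iff.2 fun h => ?_
  constructor
  · intro hh
    have h1 : y * h * y⁻¹ = h := by rw [hcomm y hy h (hD hh)]; group
    rw [h1]; exact hh
  · intro hh
    have h2 : h ∈ P := by
      have h3 := mul_mem (mul_mem (inv_mem hy) (hD hh)) hy
      have h4 : y⁻¹ * (y * h * y⁻¹) * y = h := by group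
      rwa [h4] at h3
    have h1 : y * h * y⁻¹ = h := by rw [hcomm y hy h h2]; group
    rwa [h1] at hh

theorem comm_of_card_sq {p : ℕ} [Fact p.Prime] {P : Subgroup G} (hP : Nat.card P = p ^ 2) :
    ∀ a ∈ P, ∀ b ∈ P, a * b = b * a := by
  have hcomm : IsMulCommutative P := IsPGroup.isMulCommutative_of_card_eq_prime_sq (p := p) hP
  intro a ha b hb
  have := hcomm.is_comm.comm ⟨a, ha⟩ ⟨b, hb⟩
  exact congrArg Subtype.val this

/-- Intersections of Sylow subgroups of order `p²`. -/
theorem card_inf_eq {p : ℕ} [Fact p.Prime] (P R : Sylow p G) (hP : Nat.card (P : Subgroup G) = p ^ 2) (hne : P ≠ R)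
    (hi : ((R : Subgroup G).subgroupOf (P : Subgroup G)).index ≤ p) :
    Nat.card ((P : Subgroup G) ⊓ (R : Subgroup G) : Subgroup G) = p := by
  have hp : p.Prime := Fact.out
  have h1 := card_eq_relIndex_mul (inf_le_left : (P : Subgroup G) ⊓ R ≤ P)
  rw [Subgroup.inf_relIndex_left, hP] at h1
  have h2 : (R : Subgroup G).relIndex (P : Subgroup G) ∣ p ^ 2 := ⟨_, h1⟩
  obtain ⟨j, hj, hj2⟩ := (Nat.dvd_prime_pow hp).1 h2
  have hi' : (R : Subgroup G).relIndex (P : Subgroup G) ≤ p := hi
  have hj1 : j ≠ 0 := by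
    rintro rfl
    apply hne
    have h3 : (R : Subgroup G).relIndex (P : Subgroup G) = 1 := by rw [hj2]; simp
    have h4 : (P : Subgroup G) ≤ R := Subgroup.relIndex_eq_one.1 h3
    exact Sylow.ext (P.is_maximal' R.isPGroup' h4).symm
  have hj3 : j = 1 := by
    by_contra hne1
    have hj4 : j = 2 := by omega
    rw [hj2, hj4] at hi'
    have := hp.two_le
    nlinarith
  rw [hj2, hj3, pow_one, sq] at h1
  exact (Nat.eq_of_mul_eq_mul_left hp.pos h1).symm

/-- An involution normalizing but not centralizing a Sylow subgroup of order `p`, when there are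
exactly `p + 1` Sylow subgroups, fixes exactly two Sylow subgroups. -/
theorem card_fix_involution {p : ℕ} [Fact p.Prime] (hp2 : p ≠ 2) (P : Sylow p G) (hP : Nat.card P = p)
    (hn : Nat.card (Sylow p G) = p + 1) (t : G) (ht : t ^ 2 = 1)
    (htN : t ∈ normalizer ((P : Subgroup G) : Set G)) (htC : t ∉ centralizer ((P : Subgroup G) : Set G))
    [Fintype (Sylow p G)] [DecidableEq (Sylow p G)] :
    (MulAction.toPermHom G (Sylow p G) t).support.card = p - 1 := by
  classical
  have hp : p.Prime := Fact.out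
  set σ := MulAction.toPermHom G (Sylow p G) t with hσ
  have hσ2 : σ ^ 2 = 1 := by rw [hσ, ← map_pow, ht, map_one]
  have hσa : ∀ Q : Sylow p G, σ Q = t • Q := fun Q => rfl
  set F : Finset (Sylow p G) := Finset.univ.filter (fun Q => σ Q = Q) with hF
  have hsupp : σ.support = Fᶜ := by
    ext Q
    simp [F, Equiv.Perm.mem_support]
  have hcardX : Fintype.card (Sylow p G) = p + 1 := by rw [← Nat.card_eq_fintype_card, hn]
  have hsc : σ.support.card = p + 1 - F.card := by
    rw [hsupp, Finset.card_compl, hcardX]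
  have hPF : P ∈ F := by
    simp only [F, Finset.mem_filter, Finset.mem_univ, true_and, hσa]
    exact Sylow.smul_eq_iff_mem_normalizer.2 htN
  have hpart : ∀ Q₁ ∈ F, ∀ Q₂ ∈ F, Q₁ ≠ P → Q₂ ≠ P → Q₁ = Q₂ := by
    intro Q₁ h₁ Q₂ h₂ h₁P h₂P
    simp only [F, Finset.mem_filter, Finset.mem_univ, true_and, hσa] at h₁ h₂
    obtain ⟨r, hr, hrQ⟩ := exists_smul_eq_of_card P hP hn Q₁ Q₂ h₁P h₂P
    have hr' : t * r * t⁻¹ ∈ (P : Subgroup G) := (Subgroup.mem_normalizer_iff.1 htN r).1 hr
    have h3 : (t * r * t⁻¹) • Q₁ = Q₂ := by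
      calc (t * r * t⁻¹) • Q₁ = (t * r) • (t⁻¹ • Q₁) := by rw [mul_smul]
        _ = (t * r) • Q₁ := by
            have : t⁻¹ • Q₁ = Q₁ := by
              conv_lhs => rw [← h₁]
              exact inv_smul_smul _ _
            rw [this]
        _ = t • (r • Q₁) := mul_smul _ _ _
        _ = t • Q₂ := by rw [hrQ]
        _ = Q₂ := h₂
    have h4 : (r⁻¹ * (t * r * t⁻¹)) • Q₁ = Q₁ := by
      rw [mul_smul, h3, ← hrQ, inv_smul_smul]
    have h5 : r⁻¹ * (t * r * t⁻¹) ∈ (Q₁ : Subgroup G) :=
      mem_of_mem_sylow_of_smul_eq (mul_mem (inv_mem hr) hr') h4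
    have h6 : r⁻¹ * (t * r * t⁻¹) = 1 := by
      have hb := subgroupOf_eq_bot P Q₁ hP h₁P.symm
      have : (⟨r⁻¹ * (t * r * t⁻¹), mul_mem (inv_mem hr) hr'⟩ : (P : Subgroup G)) ∈
          (Q₁ : Subgroup G).subgroupOf (P : Subgroup G) := h5
      rw [hb, Subgroup.mem_bot] at this
      exact congrArg Subtype.val this
    have h7 : t * r * t⁻¹ = r := by
      have := inv_mul_eq_one.1 h6
      exact this.symm
    by_cases hr1 : r = 1
    · rw [hr1, one_smul] at hrQ
      exact hrQ
    · exfalso
      apply htC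
      have hz := zpowers_eq_of_card_prime hp hP hr hr1
      rw [Subgroup.mem_centralizer_iff]
      intro y hy
      rw [SetLike.mem_coe, ← hz] at hy
      obtain ⟨k, rfl⟩ := hy
      have h8 : Commute t r := by
        show t * r = r * t
        calc t * r = (t * r * t⁻¹) * t := by group
          _ = r * t := by rw [h7]
      exact ((h8.zpow_right k).eq).symm
  have hcle : F.card ≤ 2 := by
    by_cases hex : ∃ Q ∈ F, Q ≠ P
    · obtain ⟨Q, hQ, hQP⟩ := hex
      have : F ⊆ {P, Q} := by
        intro R hR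
        by_cases hRP : R = P
        · simp [hRP]
        · simp [hpart R hR Q hQ hRP hQP]
      exact (Finset.card_le_card this).trans (Finset.card_le_two)
    · push Not at hex
      have : F ⊆ {P} := fun R hR => by simp [hex R hR]
      have h1 := Finset.card_le_card this
      simp at h1
      omega
  have hge : 1 ≤ F.card := Finset.card_pos.2 ⟨P, hPF⟩
  have heven : 2 ∣ σ.support.card := Equiv.Perm.two_dvd_card_support hσ2
  have hodd : p % 2 = 1 := (Nat.Prime.eq_two_or_odd hp).resolve_left hp2
  have hF2 : F.card = 2 := by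
    rw [hsc] at heven
    have hp2' := hp.two_le
    omega
  rw [hsc, hF2]
  omega

/-- The contradiction for `p ≡ 3 (mod 4)`. -/
theorem sign_contra [IsSimpleGroup G] (hG : ¬ IsMulCommutative G) {p : ℕ} [Fact p.Prime] (hp4 : p % 4 = 3)
    (P : Sylow p G) (hP : Nat.card P = p)
    (hn : Nat.card (Sylow p G) = p + 1) (t : G) (ht : t ^ 2 = 1)
    (htN : t ∈ normalizer ((P : Subgroup G) : Set G)) (htC : t ∉ centralizer ((P : Subgroup G) : Set G)) :
    False := by
  classical
  haveI : Fintype (Sylow p G) := Fintype.ofFinite _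
  have hc := card_fix_involution (by omega) P hP hn t ht htN htC
  have hσ2 : (MulAction.toPermHom G (Sylow p G) t) ^ 2 = 1 := by rw [← map_pow, ht, map_one]
  obtain ⟨k, hk⟩ : ∃ k, p - 1 = 2 * (2 * k + 1) := ⟨(p - 3) / 4, by omega⟩
  have hs := sign_of_sq_eq_one _ hσ2 (2 * k + 1) (by rw [hc, hk])
  have htriv := hom_to_comm_trivial hG
    ((Equiv.Perm.sign).comp (MulAction.toPermHom G (Sylow p G))) t
  rw [MonoidHom.comp_apply, hs, pow_succ, pow_mul] at htriv
  simp at htriv

/-- An element of large prime order normalizing a group of order `p²` centralizes it. -/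
theorem mem_centralizer_of_large {P : Subgroup G} {p l : ℕ} (hp : p.Prime) (hl : l.Prime) (hP : Nat.card P = p ^ 2)
    (hpl : p < l) (hodd : p ≠ 2) {y : G} (hy : y ∈ normalizer (P : Set G)) (hord : orderOf y = l) :
    y ∈ centralizer (P : Set G) := by
  classical
  haveI : Fact l.Prime := ⟨hl⟩
  haveI : Fact p.Prime := ⟨hp⟩
  haveI := Fintype.ofFinite P
  let f : Function.End P := fun x => ⟨y * x.1 * y⁻¹, (Subgroup.mem_normalizer_iff.1 hy x.1).1 x.2⟩
  have hfk : ∀ (k : ℕ) (x : P), ((f ^ k) x : G) = y ^ k * x.1 * (y ^ k)⁻¹ := by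
    intro k
    induction k with
    | zero =>
      intro x
      rw [pow_zero]
      show x.1 = _
      simp
    | succ k ih =>
      intro x
      rw [pow_succ']
      show y * ((f ^ k) x : G) * y⁻¹ = _
      rw [ih]
      rw [pow_succ']
      group
  have hfl : f ^ l ^ 1 = 1 := by
    rw [pow_one]
    funext x
    apply Subtype.ext
    rw [hfk, ← hord, pow_orderOf_eq_one]
    show _ = x.1
    simp
  have hmod := Equiv.Perm.card_fixedPoints_modEq (f := f) (p := l) (n := 1) hfl
  let F : Subgroup P := (centralizer ({y} : Set G)).subgroupOf P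
  have hFmem : ∀ x : P, x ∈ F ↔ f x = x := by
    intro x
    rw [Subgroup.mem_subgroupOf, Subgroup.mem_centralizer_iff]
    constructor
    · intro h
      apply Subtype.ext
      show y * x.1 * y⁻¹ = x.1
      have := h y rfl
      rw [this]
      group
    · intro h z hz
      have hz' : z = y := hz
      rw [hz']
      have h1 : y * x.1 * y⁻¹ = x.1 := congrArg Subtype.val h
      calc y * x.1 = (y * x.1 * y⁻¹) * y := by group
        _ = x.1 * y := by rw [h1]
  have hcardF : Fintype.card f.fixedPoints = Nat.card F := by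
    rw [← Nat.card_eq_fintype_card]
    exact Nat.card_congr
      { toFun := fun x => ⟨x.1, (hFmem x.1).2 x.2⟩
        invFun := fun x => ⟨x.1, (hFmem x.1).1 x.2⟩
        left_inv := fun x => rfl
        right_inv := fun x => rfl }
  rw [hcardF, ← Nat.card_eq_fintype_card, hP] at hmod
  have hd : Nat.card F ∣ p ^ 2 := hP ▸ Subgroup.card_subgroup_dvd_card F
  obtain ⟨j, hj, hj2⟩ := (Nat.dvd_prime_pow hp).1 hd
  have hp1 := hp.one_lt
  have hnotdvd : ¬ l ∣ p - 1 := fun h => by
    have := Nat.le_of_dvd (by omega) h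
    omega
  have hnotdvd2 : ¬ l ∣ p := fun h => by
    have := Nat.le_of_dvd (by omega) h
    omega
  have hcase : j = 2 := by
    by_contra hj2'
    have hj' : j = 0 ∨ j = 1 := by omega
    rw [hj2] at hmod
    have hle : p ^ j ≤ p ^ 2 := Nat.pow_le_pow_right hp.pos hj
    have hdvd : l ∣ p ^ 2 - p ^ j := (Nat.modEq_iff_dvd' hle).1 hmod.symm
    rcases hj' with rfl | rfl
    · have h1 : p ^ 2 - p ^ 0 = (p - 1) * (p + 1) := by
        obtain ⟨q, rfl⟩ : ∃ q, p = q + 1 := ⟨p - 1, by omega⟩
        simp only [Nat.add_sub_cancel, pow_zero]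
        have : (q + 1) ^ 2 = q * (q + 1 + 1) + 1 := by ring
        omega
      rw [h1] at hdvd
      rcases (Nat.Prime.dvd_mul hl).1 hdvd with h2 | h2
      · exact hnotdvd h2
      · have h3 := Nat.le_of_dvd (by omega) h2
        have h4 : l = p + 1 := by omega
        have h5 : p % 2 = 1 := (Nat.Prime.eq_two_or_odd hp).resolve_left hodd
        have h6 : l % 2 = 1 := (Nat.Prime.eq_two_or_odd hl).resolve_left (by omega)
        omega
    · have h1 : p ^ 2 - p ^ 1 = p * (p - 1) := by
        obtain ⟨q, rfl⟩ : ∃ q, p = q + 1 := ⟨p - 1, by omega⟩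
        simp only [Nat.add_sub_cancel, pow_one]
        have : (q + 1) ^ 2 = (q + 1) * q + (q + 1) := by ring
        omega
      rw [h1] at hdvd
      rcases (Nat.Prime.dvd_mul hl).1 hdvd with h2 | h2
      · exact hnotdvd2 h2
      · exact hnotdvd h2
  have hFtop : F = ⊤ := by
    apply Subgroup.eq_top_of_card_eq
    rw [hj2, hcase, hP]
  rw [Subgroup.mem_centralizer_iff]
  intro x hx
  have hxF : (⟨x, hx⟩ : P) ∈ F := by rw [hFtop]; trivial
  have h2 := (hFmem _).1 hxF
  have h3 : y * x * y⁻¹ = x := congrArg Subtype.val h2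
  calc x * y = (y * x * y⁻¹) * y := by rw [h3]
    _ = y * x := by group

end Cfsg.Agent.H04.Small
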